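import Cfsg.Agent.H2.Bs.TrickSp
import Cfsg.Agent.H358.Bs.Trick

/-!
# S5733, BS21: final form (helper2); the count BS10 is a hypothesis
-/

set_option autoImplicit false

namespace Cfsg.Agent.H2.Bs

open Cfsg.Agent.H847.Bs Module
open Cfsg.Agent.H851.Dg (nd)

universe u v

theorem trickP : TrickP.{v} := fun _ _ _ _ _ _ _ _ hc hε h1 h2 h3 h4 h5 h6 h7 H hH =>
  Cfsg.Agent.H358.Bs.trick hc hε h1 h2 h3 h4 h5 h6 h7 H hH

/-- BS21 (`hcount` is BS10) -/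
theorem trickSp
    (hcount : ∃ c : ℝ, 0 < c ∧ ∃ K₀ : ℕ, ∀ (F : Type u) (V : Type v) [Field F] [Finite F] [AddCommGroup V] [Module F V]
      [FiniteDimensional F V] (Φ : Frm F V), IsSp Φ → ∀ n K : ℕ, K₀ ≤ K → finrank F V = 2 * n → K < n →
      c / (K + 1) * (Nat.card Φ.Iso : ℝ) ≤ Nat.card (Φ.SS K (2 * n)))
    (hbase : ∃ ε : ℝ, 0 < ε ∧ ∀ (F : Type u) [Field F] [Finite F], RB ε (Matrix.SpecialLinearGroup (Fin 2) F)) :
    ∃ c : ℝ, 0 < c ∧ ∃ n₀ : ℕ, ∀ (F : Type u) (V : Type v) [Field F] [Finite F] [AddCommGroup V] [Module F V]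
      [FiniteDimensional F V] (Φ : Frm F V), IsSp Φ → n₀ ≤ finrank F V → ∀ H : Subgroup (V ≃ₗ[F] V),
      (ndV Φ.Iso H : ℝ) < c * Nat.card Φ.Iso →
      ∃ W U : Submodule F V, Φ.Dec W U ∧ finrank F W = 2 ∧ HasOn Φ.Iso H W U :=
  trickSp' trickP hcount hbase

end Cfsg.Agent.H2.Bs
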