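import Cfsg.Agent.H847.Bs.Defs2

/-!
# S5733, BS21: glueing, symplectic planes (helper2)

* `glue_left`, `glue_right`, `glue_mul`, `glueHom`;
* `glue_mem_iso`, `exists_glue` : isometries;
* `isSp_on`, `exists_plane`, `even_finrank` : symplectic spaces;
* `rb_plane` : the isometry group of a symplectic plane is `SL₂`.
-/

set_option autoImplicit false
set_option linter.unusedSectionVars false

namespace Cfsg.Agent.H2.Bs

open Cfsg.Agent.H847.Bs Module

universe u v

section lin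

variable {F V : Type*} [Field F] [AddCommGroup V] [Module F V] {D U : Submodule F V}

theorem glue_left (h : IsCompl D U) (x : D ≃ₗ[F] D) (y : U ≃ₗ[F] U) (d : D) : glue h x y (d : V) = x d := by
  unfold glue
  rw [LinearEquiv.trans_apply, LinearEquiv.trans_apply, Submodule.prodEquivOfIsCompl_symm_apply_left]
  simp [Submodule.coe_prodEquivOfIsCompl']

theorem glue_right (h : IsCompl D U) (x : D ≃ₗ[F] D) (y : U ≃ₗ[F] U) (u : U) : glue h x y (u : V) = y u := by
  unfold glue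
  rw [LinearEquiv.trans_apply, LinearEquiv.trans_apply, Submodule.prodEquivOfIsCompl_symm_apply_right]
  simp [Submodule.coe_prodEquivOfIsCompl']

theorem exists_add (h : IsCompl D U) (v : V) : ∃ d : D, ∃ u : U, v = d + u := by
  have h1 : v ∈ D ⊔ U := by rw [h.sup_eq_top]; trivial
  obtain ⟨d, hd, u, hu, e⟩ := Submodule.mem_sup.1 h1
  exact ⟨⟨d, hd⟩, ⟨u, hu⟩, e.symm⟩

theorem eq_of_add (h : IsCompl D U) {d d' : D} {u u' : U} (e : (d : V) + u = d' + u') : d = d' ∧ u = u' := by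
  have h1 : (d : V) - d' = u' - u := by
    rw [sub_eq_sub_iff_add_eq_add, e, add_comm]
  have h2 : (d : V) - d' ∈ D ⊓ U := by
    refine ⟨sub_mem d.2 d'.2, ?_⟩
    rw [h1]
    exact sub_mem u'.2 u.2
  rw [h.inf_eq_bot, Submodule.mem_bot] at h2
  refine ⟨Subtype.ext (sub_eq_zero.1 h2), Subtype.ext ?_⟩
  rw [h1, sub_eq_zero] at h2
  exact h2.symm

theorem ext_compl (h : IsCompl D U) {f g : V ≃ₗ[F] V} (h1 : ∀ d : D, f d = g d) (h2 : ∀ u : U, f u = g u) : f = g := by
  ext v
  obtain ⟨d, u, rfl⟩ := exists_add h v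
  rw [map_add, map_add, h1, h2]

theorem glue_mul (h : IsCompl D U) (x x' : D ≃ₗ[F] D) (y y' : U ≃ₗ[F] U) :
    glue h (x * x') (y * y') = glue h x y * glue h x' y' := by
  refine ext_compl h (fun d => ?_) fun u => ?_
  · change _ = glue h x y (glue h x' y' d)
    rw [glue_left, glue_left, glue_left]
    rfl
  · change _ = glue h x y (glue h x' y' u)
    rw [glue_right, glue_right, glue_right]
    rfl

theorem glue_one (h : IsCompl D U) : glue h (1 : D ≃ₗ[F] D) (1 : U ≃ₗ[F] U) = 1 := by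
  refine ext_compl h (fun d => ?_) fun u => ?_
  · rw [glue_left]; rfl
  · rw [glue_right]; rfl

theorem glue_inj (h : IsCompl D U) {x x' : D ≃ₗ[F] D} {y y' : U ≃ₗ[F] U} (e : glue h x y = glue h x' y') :
    x = x' ∧ y = y' := by
  constructor
  · ext d
    rw [← glue_left h x y, ← glue_left h x' y', e]
  · ext u
    rw [← glue_right h x y, ← glue_right h x' y', e]

end lin

section form

variable {F V : Type*} [Field F] [AddCommGroup V] [Module F V] {Φ : Frm F V} {D U : Submodule F V}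

theorem orth' (h : Φ.Dec D U) (d : D) (u : U) : Φ.B (u : V) d = 0 := Φ.refl _ _ (h.orth _ d.2 _ u.2)

theorem glue_mem_iso (h : Φ.Dec D U) {x : D ≃ₗ[F] D} {y : U ≃ₗ[F] U} (hx : x ∈ (Φ.on D).Iso) (hy : y ∈ (Φ.on U).Iso) :
    glue h.compl x y ∈ Φ.Iso := by
  have hx1 : ∀ a b : D, Φ.B (x a : V) (x b) = Φ.B (a : V) b := hx.1
  have hy1 : ∀ a b : U, Φ.B (y a : V) (y b) = Φ.B (a : V) b := hy.1
  have hx2 : ∀ a : D, Φ.q (x a : V) = Φ.q (a : V) := hx.2
  have hy2 : ∀ a : U, Φ.q (y a : V) = Φ.q (a : V) := hy.2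
  constructor
  · intro v w
    obtain ⟨d, u, rfl⟩ := exists_add h.compl v
    obtain ⟨d', u', rfl⟩ := exists_add h.compl w
    rw [map_add, map_add, glue_left, glue_left, glue_right, glue_right]
    simp only [Φ.add_left, Φ.add_right]
    rw [hx1, hy1, h.orth _ (x d).2 _ (y u').2, h.orth _ d.2 _ u'.2, orth' h (x d') (y u), orth' h d' u]
  · intro v
    obtain ⟨d, u, rfl⟩ := exists_add h.compl v
    rw [map_add, glue_left, glue_right, Φ.q_add _ _ (h.orth _ (x d).2 _ (y u).2), Φ.q_add _ _ (h.orth _ d.2 _ u.2),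
      hx2, hy2]

theorem inv_map [FiniteDimensional F V] {g : V ≃ₗ[F] V} {D : Submodule F V} (h : Inv g D) :
    D.map (g : V →ₗ[F] V) = D := by
  have h1 : D.map (g : V →ₗ[F] V) ≤ D := by
    rintro _ ⟨v, hv, rfl⟩
    exact h v hv
  refine Submodule.eq_of_le_of_finrank_eq h1 ?_
  exact LinearEquiv.finrank_map_eq g D

/-- the restriction to an invariant subspace -/
noncomputable def res [FiniteDimensional F V] (g : V ≃ₗ[F] V) (D : Submodule F V) (h : Inv g D) : D ≃ₗ[F] D :=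
  LinearEquiv.ofBijective ((g : V →ₗ[F] V).restrict (p := D) (q := D) h) (by
    have h1 : Function.Injective ((g : V →ₗ[F] V).restrict (p := D) (q := D) h) := by
      intro a b e
      apply Subtype.ext
      apply g.injective
      exact congrArg Subtype.val e
    exact ⟨h1, LinearMap.injective_iff_surjective.1 h1⟩)

theorem res_apply [FiniteDimensional F V] (g : V ≃ₗ[F] V) (D : Submodule F V) (h : Inv g D) (d : D) :
    (res g D h d : V) = g d := rfl

theorem res_mem_iso [FiniteDimensional F V] {g : V ≃ₗ[F] V} (hg : g ∈ Φ.Iso) (h : Inv g D) :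
    res g D h ∈ (Φ.on D).Iso :=
  ⟨fun a b => hg.1 a b, fun a => hg.2 a⟩

/-- nondegenerate parts of an orthogonal decomposition -/
theorem ndOn_left (hnd : Φ.Nd) (h : Φ.Dec D U) : Φ.NdOn D := by
  intro x hx h1
  refine hnd x fun y => ?_
  obtain ⟨d, u, rfl⟩ := exists_add h.compl y
  rw [Φ.add_right, h1 _ d.2, h.orth _ hx _ u.2, add_zero]

theorem ndOn_right (hnd : Φ.Nd) (h : Φ.Dec D U) : Φ.NdOn U := by
  intro x hx h1
  refine hnd x fun y => ?_
  obtain ⟨d, u, rfl⟩ := exists_add h.compl y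
  rw [Φ.add_right, h1 _ u.2, orth' h d ⟨x, hx⟩, zero_add]

theorem zero_left (Φ : Frm F V) (y : V) : Φ.B 0 y = 0 := by
  have := Φ.smul_left 0 0 y
  rwa [zero_smul, zero_mul] at this

theorem zero_right (Φ : Frm F V) (y : V) : Φ.B y 0 = 0 := Φ.refl _ _ (zero_left Φ y)

/-- the second part is the orthogonal space of the first one -/
theorem mem_right_iff (hnd : Φ.Nd) (h : Φ.Dec D U) {v : V} : v ∈ U ↔ ∀ d ∈ D, Φ.B v d = 0 := by
  constructor
  · intro hv d hd
    exact orth' h ⟨d, hd⟩ ⟨v, hv⟩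
  · intro h1
    obtain ⟨d, u, rfl⟩ := exists_add h.compl v
    have h2 : (d : V) = 0 := by
      refine ndOn_left hnd h d d.2 fun y hy => ?_
      have h3 := h1 y hy
      rwa [Φ.add_left, orth' h ⟨y, hy⟩ u, add_zero] at h3
    rw [h2, zero_add]
    exact u.2

theorem inv_right [FiniteDimensional F V] (hnd : Φ.Nd) (h : Φ.Dec D U) {g : V ≃ₗ[F] V} (hg : g ∈ Φ.Iso)
    (hD : Inv g D) : Inv g U := by
  intro v hv
  rw [mem_right_iff hnd h] at hv ⊢
  intro d hd
  rw [← inv_map hD] at hd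
  obtain ⟨d', hd', rfl⟩ := hd
  change Φ.B (g v) (g d') = 0
  rw [hg.1]
  exact hv _ hd'

theorem exists_glue [FiniteDimensional F V] (hnd : Φ.Nd) (h : Φ.Dec D U) {g : V ≃ₗ[F] V} (hg : g ∈ Φ.Iso)
    (hD : Inv g D) : ∃ x ∈ (Φ.on D).Iso, ∃ y ∈ (Φ.on U).Iso, g = glue h.compl x y := by
  have hU := inv_right hnd h hg hD
  refine ⟨res g D hD, res_mem_iso hg hD, res g U hU, res_mem_iso hg hU, ?_⟩
  refine ext_compl h.compl (fun d => ?_) fun u => ?_
  · rw [glue_left]; rfl
  · rw [glue_right]; rfl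

end form

section sp

variable {F V : Type*} [Field F] [AddCommGroup V] [Module F V] {Φ : Frm F V} {D U : Submodule F V}

theorem isSp_left (hΦ : IsSp Φ) (h : Φ.Dec D U) : IsSp (Φ.on D) where
  nd x hx := Subtype.ext (ndOn_left hΦ.nd h x x.2 fun y hy => hx ⟨y, hy⟩)
  s := hΦ.s
  q x := hΦ.q x
  alt x := hΦ.alt x

theorem isSp_right (hΦ : IsSp Φ) (h : Φ.Dec D U) : IsSp (Φ.on U) where
  nd x hx := Subtype.ext (ndOn_right hΦ.nd h x x.2 fun y hy => hx ⟨y, hy⟩)
  s := hΦ.s
  q x := hΦ.q x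
  alt x := hΦ.alt x

theorem sp_symm (hΦ : IsSp Φ) (x y : V) : Φ.B y x = -Φ.B x y := by
  have h1 := hΦ.alt (x + y)
  rw [Φ.add_left, Φ.add_right, Φ.add_right, hΦ.alt, hΦ.alt, zero_add, add_zero] at h1
  rw [eq_neg_iff_add_eq_zero, add_comm]
  exact h1

/-- a hyperbolic plane -/
theorem exists_plane [FiniteDimensional F V] (hΦ : IsSp Φ) (h0 : finrank F V ≠ 0) :
    ∃ D U : Submodule F V, Φ.Dec D U ∧ finrank F D = 2 := by
  have hnt : Nontrivial V := by
    rw [← not_subsingleton_iff_nontrivial]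
    intro hs
    exact h0 (finrank_zero_iff.2 hs)
  obtain ⟨x, hx⟩ := exists_ne (0 : V)
  obtain ⟨z, hz⟩ : ∃ z, Φ.B x z ≠ 0 := by
    by_contra hcon
    push Not at hcon
    exact hx (hΦ.nd x hcon)
  set y := (Φ.B x z)⁻¹ • z with hy
  have hxy : Φ.B x y = 1 := by
    rw [hy, Φ.smul_right, hΦ.s, inv_mul_cancel₀ hz]
  have hyx : Φ.B y x = -1 := by rw [sp_symm hΦ x y, hxy]
  let U : Submodule F V :=
    { carrier := {v | Φ.B v x = 0 ∧ Φ.B v y = 0}
      add_mem' := by
        rintro a b ⟨h1, h2⟩ ⟨h3, h4⟩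
        exact ⟨by rw [Φ.add_left, h1, h3, add_zero], by rw [Φ.add_left, h2, h4, add_zero]⟩
      zero_mem' := ⟨zero_left Φ x, zero_left Φ y⟩
      smul_mem' := by
        rintro c a ⟨h1, h2⟩
        exact ⟨by rw [Φ.smul_left, h1, mul_zero], by rw [Φ.smul_left, h2, mul_zero]⟩ }
  have hli : LinearIndependent F ![x, y] := by
    rw [LinearIndependent.pair_iff]
    intro a b hab
    have h1 := congrArg (fun v => Φ.B v y) hab
    have h2 := congrArg (fun v => Φ.B v x) hab
    simp only [Φ.add_left, Φ.smul_left, hxy, hyx, hΦ.alt, zero_left, mul_one, mul_zero, add_zero, zero_add, mul_neg,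
      neg_eq_zero] at h1 h2
    exact ⟨h1, h2⟩
  refine ⟨Submodule.span F (Set.range ![x, y]), U, ⟨⟨?_, ?_⟩, ?_⟩, ?_⟩
  · rw [disjoint_iff, eq_bot_iff]
    rintro v ⟨hv1, hv2⟩
    have hv2 : Φ.B v x = 0 ∧ Φ.B v y = 0 := hv2
    rw [SetLike.mem_coe, Matrix.range_cons, Matrix.range_cons, Matrix.range_empty, Set.union_empty,
      Set.singleton_union, Submodule.mem_span_pair] at hv1
    obtain ⟨a, b, rfl⟩ := hv1
    simp only [Φ.add_left, Φ.smul_left, hxy, hyx, hΦ.alt, mul_one, mul_zero, add_zero, zero_add, mul_neg,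
      neg_eq_zero] at hv2
    rw [hv2.1, hv2.2, zero_smul, zero_smul, add_zero]
    exact Submodule.zero_mem _
  · rw [codisjoint_iff, eq_top_iff]
    intro v _
    rw [Submodule.mem_sup]
    refine ⟨Φ.B v y • x - Φ.B v x • y, ?_, v - (Φ.B v y • x - Φ.B v x • y), ⟨?_, ?_⟩, by abel⟩
    · rw [Matrix.range_cons, Matrix.range_cons, Matrix.range_empty, Set.union_empty,
        Set.singleton_union, Submodule.mem_span_pair]
      exact ⟨Φ.B v y, -Φ.B v x, by rw [neg_smul, sub_eq_add_neg]⟩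
    · have e : v - (Φ.B v y • x - Φ.B v x • y) = v + ((-Φ.B v y) • x + Φ.B v x • y) := by
        rw [neg_smul]; abel
      rw [e]
      simp only [Φ.add_left, Φ.smul_left, hyx, hΦ.alt, mul_zero, zero_add, mul_neg, mul_one, add_neg_cancel]
    · have e : v - (Φ.B v y • x - Φ.B v x • y) = v + ((-Φ.B v y) • x + Φ.B v x • y) := by
        rw [neg_smul]; abel
      rw [e]
      simp only [Φ.add_left, Φ.smul_left, hxy, hΦ.alt, mul_zero, add_zero, mul_one, add_neg_cancel]
  · intro v hv w hw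
    obtain ⟨h1, h2⟩ : Φ.B w x = 0 ∧ Φ.B w y = 0 := hw
    rw [Matrix.range_cons, Matrix.range_cons, Matrix.range_empty, Set.union_empty,
      Set.singleton_union, Submodule.mem_span_pair] at hv
    obtain ⟨a, b, rfl⟩ := hv
    rw [Φ.add_left, Φ.smul_left, Φ.smul_left, Φ.refl _ _ h1, Φ.refl _ _ h2, mul_zero, mul_zero, add_zero]
  · rw [finrank_span_eq_card hli, Fintype.card_fin]

theorem finrank_dec [FiniteDimensional F V] (h : Φ.Dec D U) : finrank F D + finrank F U = finrank F V :=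
  Submodule.finrank_add_eq_of_isCompl h.compl

theorem even_finrank' (N : ℕ) : ∀ (F : Type u) [Field F] (V : Type v) [AddCommGroup V] [Module F V]
    [FiniteDimensional F V] (Φ : Frm F V), IsSp Φ → finrank F V ≤ N → ∃ n, finrank F V = 2 * n := by
  induction N with
  | zero =>
    intro F _ V _ _ _ Φ _ h
    exact ⟨0, by omega⟩
  | succ N ih =>
    intro F _ V _ _ _ Φ hΦ h
    by_cases h0 : finrank F V = 0
    · exact ⟨0, by omega⟩
    obtain ⟨D, U, hD, h2⟩ := exists_plane hΦ h0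
    have h3 := finrank_dec hD
    obtain ⟨n, hn⟩ := ih F U (Φ.on U) (isSp_right hΦ hD) (by omega)
    exact ⟨n + 1, by omega⟩

theorem even_finrank {F : Type u} [Field F] {V : Type v} [AddCommGroup V] [Module F V]
    [FiniteDimensional F V] {Φ : Frm F V} (hΦ : IsSp Φ) : ∃ n, finrank F V = 2 * n :=
  even_finrank' _ F V Φ hΦ le_rfl

end sp

end Cfsg.Agent.H2.Bs
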