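import Cfsg.Agent.H2.Bs.Glue

/-!
# S5733, BS21: the isometry group of a symplectic plane is `SL₂` (helper2)
-/

set_option autoImplicit false

namespace Cfsg.Agent.H2.Bs

open Cfsg.Agent.H847.Bs Module
open Cfsg.Agent.H851.Dg (nd nd_comap_equiv)

section plane

variable {F V : Type*} [Field F] [AddCommGroup V] [Module F V] [FiniteDimensional F V] {Φ : Frm F V}

theorem plane_form (hΦ : IsSp Φ) (b : Basis (Fin 2) F V) (v w : V) :
    Φ.B v w = (b.equivFun v 0 * b.equivFun w 1 - b.equivFun v 1 * b.equivFun w 0) * Φ.B (b 0) (b 1) := by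
  conv_lhs => rw [← b.equivFun.symm_apply_apply v, ← b.equivFun.symm_apply_apply w]
  generalize b.equivFun v = x
  generalize b.equivFun w = y
  rw [Basis.equivFun_symm_apply, Basis.equivFun_symm_apply, Fin.sum_univ_two, Fin.sum_univ_two]
  simp only [Φ.add_left, Φ.add_right, Φ.smul_left, Φ.smul_right, hΦ.s, hΦ.alt, sp_symm hΦ (b 0) (b 1)]
  ring

theorem plane_ne (hΦ : IsSp Φ) (b : Basis (Fin 2) F V) : Φ.B (b 0) (b 1) ≠ 0 := by
  intro h0
  refine b.ne_zero 0 (hΦ.nd (b 0) fun y => ?_)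
  rw [plane_form hΦ b, h0, mul_zero]

theorem plane_mem_iff (hΦ : IsSp Φ) (b : Basis (Fin 2) F V) (g : V ≃ₗ[F] V) :
    g ∈ Φ.Iso ↔ b.equivFun (g (b 0)) 0 * b.equivFun (g (b 1)) 1 - b.equivFun (g (b 0)) 1 * b.equivFun (g (b 1)) 0 = 1 := by
  constructor
  · intro hg
    have h1 := hg.1 (b 0) (b 1)
    rw [plane_form hΦ b (g (b 0)), mul_eq_right₀ (plane_ne hΦ b)] at h1
    exact h1
  · intro h1
    refine ⟨fun v w => ?_, fun v => by rw [hΦ.q, hΦ.q]⟩
    rw [plane_form hΦ b (g v), plane_form hΦ b v]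
    congr 1
    have e : ∀ v : V, ∀ i, b.equivFun (g v) i = b.equivFun v 0 * b.equivFun (g (b 0)) i + b.equivFun v 1 * b.equivFun (g (b 1)) i := by
      intro v i
      conv_lhs => rw [← b.equivFun.symm_apply_apply v]
      rw [Basis.equivFun_symm_apply, Fin.sum_univ_two]
      simp only [map_add, map_smul, Pi.add_apply, Pi.smul_apply, smul_eq_mul]
    rw [e v 0, e v 1, e w 0, e w 1]
    linear_combination (b.equivFun v 0 * b.equivFun w 1 - b.equivFun v 1 * b.equivFun w 0) * h1

theorem plane_equiv (hΦ : IsSp Φ) (h2 : finrank F V = 2) :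
    Nonempty (Matrix.SpecialLinearGroup (Fin 2) F ≃* Φ.Iso) := by
  let b : Basis (Fin 2) F V := finBasisOfFinrankEq F V h2
  set e := b.equivFun with he
  have hb : ∀ i, e (b i) = Pi.single i 1 := fun i => by
    ext j
    rw [he, Basis.equivFun_self, Pi.single_apply]
    exact if_congr eq_comm rfl rfl
  let f₀ (A : Matrix.SpecialLinearGroup (Fin 2) F) : V ≃ₗ[F] V := (e.trans (Matrix.SpecialLinearGroup.toLin' A)).trans e.symm
  have hf₀ : ∀ A i j, e (f₀ A (b j)) i = (A : Matrix (Fin 2) (Fin 2) F) i j := by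
    intro A i j
    change e (e.symm (Matrix.SpecialLinearGroup.toLin' A (e (b j)))) i = _
    rw [e.apply_symm_apply, hb]
    simp [Matrix.SpecialLinearGroup.toLin'_apply]
  have hmem : ∀ A, f₀ A ∈ Φ.Iso := by
    intro A
    rw [plane_mem_iff hΦ b, hf₀, hf₀, hf₀, hf₀]
    have := A.2
    rw [Matrix.det_fin_two] at this
    refine Eq.trans ?_ this
    ring
  let f : Matrix.SpecialLinearGroup (Fin 2) F →* Φ.Iso :=
    { toFun A := ⟨f₀ A, hmem A⟩
      map_one' := by
        apply Subtype.ext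
        ext v
        change e.symm (Matrix.SpecialLinearGroup.toLin' 1 (e v)) = v
        rw [map_one]
        exact e.symm_apply_apply v
      map_mul' A A' := by
        apply Subtype.ext
        ext v
        change e.symm (Matrix.SpecialLinearGroup.toLin' (A * A') (e v)) = e.symm (Matrix.SpecialLinearGroup.toLin' A (e (e.symm (Matrix.SpecialLinearGroup.toLin' A' (e v)))))
        rw [map_mul, e.apply_symm_apply]
        rfl }
  refine ⟨MulEquiv.ofBijective f ⟨?_, ?_⟩⟩
  · intro A A' h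
    have h1 : f₀ A = f₀ A' := congrArg Subtype.val h
    ext i j
    rw [← hf₀, ← hf₀, h1]
  · rintro ⟨g, hg⟩
    rw [plane_mem_iff hΦ b] at hg
    let A : Matrix (Fin 2) (Fin 2) F := Matrix.of fun i j => e (g (b j)) i
    have hA : A.det = 1 := by
      rw [Matrix.det_fin_two]
      change e (g (b 0)) 0 * e (g (b 1)) 1 - e (g (b 1)) 0 * e (g (b 0)) 1 = 1
      rw [← hg]
      ring
    refine ⟨⟨A, hA⟩, Subtype.ext ?_⟩
    change f₀ ⟨A, hA⟩ = g
    apply LinearEquiv.toLinearMap_injective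
    refine b.ext fun j => ?_
    apply e.injective
    ext i
    exact hf₀ ⟨A, hA⟩ i j

end plane

theorem rb_congr {G : Type*} {G' : Type*} [Group G] [Group G'] (e : G ≃* G') {c : ℝ} (h : RB c G) : RB c G' := by
  intro K hK
  rw [← nd_comap_equiv e K, ← Nat.card_congr e.toEquiv]
  refine h _ fun h1 => hK ?_
  rw [eq_top_iff]
  intro x _
  have h2 : e.symm x ∈ K.comap e.toMonoidHom := by rw [h1]; trivial
  rw [Subgroup.mem_comap] at h2
  simpa using h2

end Cfsg.Agent.H2.Bs
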